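import Cfsg.Agent.GTwoTwoUniq80.Good
import Cfsg.Agent.GTwoTwoUniq80.Block
import Cfsg.Agent.S0976

/-!
A group of order `12096` without elements of order `9`, `14`, `21` has a simple normal subgroup of
order `6048` with trivial centraliser, once a simple group with these properties is excluded.
-/

set_option autoImplicit false

namespace CfsgLib.GTwoTwoUniq80

open Cfsg MulAction
open scoped Pointwise

variable {G : Type*} [Group G] [Finite G]

section sevenPrime

variable [Fact (Nat.Prime 7)] (hG : Good G)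
include hG

/-- A Sylow `7`-subgroup is its own centraliser. -/
theorem Good.centralizer_eq (P : Sylow 7 G) :
    Subgroup.centralizer ((P : Subgroup G) : Set G) = (P : Subgroup G) := by
  obtain ⟨hP, hC, -⟩ := hG.seven P
  haveI := isCyclic_of_prime_card hP
  exact (Subgroup.eq_of_le_of_card_ge (Subgroup.le_centralizer (P : Subgroup G)) (by rw [hC, hP])).symm

/-- A `7'`-subgroup normalised by a Sylow `7`-subgroup has order `1` modulo `7`. -/
theorem Good.card_mod (P : Sylow 7 G) (X : Subgroup G)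
    (hX : ∀ p ∈ (P : Subgroup G), ∀ y ∈ X, p * y * p⁻¹ ∈ X) (h7 : ¬ 7 ∣ Nat.card X) :
    Nat.card X % 7 = 1 := by
  letI : MulAction (P : Subgroup G) X :=
    { smul := fun p y => ⟨p * y * (p : G)⁻¹, hX p p.2 y y.2⟩
      one_smul := fun y => Subtype.ext (show (1 : G) * y * (1 : G)⁻¹ = y by simp)
      mul_smul := fun p q y => Subtype.ext (show ((p * q : (P : Subgroup G)) : G) * y * _⁻¹ =
        (p : G) * (q * y * (q : G)⁻¹) * (p : G)⁻¹ by rw [Subgroup.coe_mul]; group) }
  have hfix : MulAction.fixedPoints (P : Subgroup G) X = {1} := by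
    ext y
    rw [MulAction.mem_fixedPoints, Set.mem_singleton_iff]
    constructor
    · intro h
      have hy : (y : G) ∈ Subgroup.centralizer ((P : Subgroup G) : Set G) := fun p hp =>
        mul_inv_eq_iff_eq_mul.mp (congrArg Subtype.val (h ⟨p, hp⟩))
      rw [hG.centralizer_eq P] at hy
      have h1 := Subgroup.orderOf_dvd_natCard _ hy
      rw [(hG.seven P).1] at h1
      rcases (Nat.dvd_prime (by norm_num)).mp h1 with e | e
      · exact Subtype.ext (orderOf_eq_one_iff.mp e)
      · exact absurd (e ▸ Subgroup.orderOf_dvd_natCard _ y.2) h7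
    · rintro rfl p
      exact Subtype.ext (show (p : G) * 1 * (p : G)⁻¹ = 1 by simp)
  have h := IsPGroup.card_modEq_card_fixedPoints P.isPGroup' X
  rw [hfix] at h
  simpa [Nat.ModEq] using h

/-- The conjugates of a Sylow `7`-subgroup lie in every normal subgroup containing one. -/
theorem Good.sylow_le_of_le (M : Subgroup G) [M.Normal] {P₀ : Sylow 7 G}
    (h : (P₀ : Subgroup G) ≤ M) (P : Sylow 7 G) : (P : Subgroup G) ≤ M := by
  obtain ⟨g, rfl⟩ := MulAction.exists_smul_eq G P₀ P
  intro y hy
  rw [Sylow.coe_subgroup_smul, Subgroup.mem_pointwise_smul_iff_inv_smul_mem] at hy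
  have hy' : g⁻¹ * y * g ∈ M := h (by simpa using hy)
  have := ‹M.Normal›.conj_mem _ hy' g
  simpa [mul_assoc] using this

/-- A subgroup of order divisible by seven contains a Sylow `7`-subgroup. -/
theorem Good.exists_le (M : Subgroup G) (h : 7 ∣ Nat.card M) :
    ∃ P : Sylow 7 G, (P : Subgroup G) ≤ M := by
  obtain ⟨⟨y, hy⟩, ho⟩ := exists_prime_orderOf_dvd_card' 7 h
  rw [Subgroup.orderOf_mk] at ho
  exact ⟨Sylow.ofCard (Subgroup.zpowers y)
    (by rw [Nat.card_zpowers, ho, hG.card, factorization_seven, pow_one]),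
    Subgroup.zpowers_le.mpr hy⟩

/-- The order of a normal `7'`-subgroup. -/
theorem Good.card_normal (X : Subgroup G) [X.Normal] (h7 : ¬ 7 ∣ Nat.card X) :
    Nat.card X ∣ 288 ∧ Nat.card X % 7 = 1 := by
  obtain ⟨P⟩ := (inferInstance : Nonempty (Sylow 7 G))
  obtain ⟨hP, hC, hN⟩ := hG.seven P
  have hnormX : ∀ p ∈ (P : Subgroup G), ∀ y ∈ X, p * y * p⁻¹ ∈ X := fun p _ y hy =>
    ‹X.Normal›.conj_mem y hy p
  have hmod := hG.card_mod P X hnormX h7
  set NP := Subgroup.normalizer ((P : Subgroup G) : Set G) with hNP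
  have hXN : X ⊓ NP = ⊥ := by
    rw [Subgroup.eq_bot_iff_forall]
    rintro y ⟨hyX, hyN⟩
    have hy : y ∈ Subgroup.centralizer ((P : Subgroup G) : Set G) := by
      intro p hp
      have h1 : p * y * p⁻¹ * y⁻¹ ∈ X := mul_mem (hnormX p hp y hyX) (inv_mem hyX)
      have h2 : p * y * p⁻¹ * y⁻¹ ∈ (P : Subgroup G) := by
        rw [show p * y * p⁻¹ * y⁻¹ = p * (y * p⁻¹ * y⁻¹) by group]
        exact mul_mem hp ((Subgroup.mem_normalizer_iff.mp hyN _).mp (inv_mem hp))
      have h3 := Subgroup.orderOf_dvd_natCard _ h2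
      rw [hP] at h3
      rcases (Nat.dvd_prime (by norm_num)).mp h3 with e | e
      · have h4 := orderOf_eq_one_iff.mp e
        rw [mul_inv_eq_one, mul_inv_eq_iff_eq_mul] at h4
        exact h4
      · exact absurd (e ▸ Subgroup.orderOf_dvd_natCard _ h1) h7
    rw [hG.centralizer_eq P] at hy
    have h1 := Subgroup.orderOf_dvd_natCard _ hy
    rw [hP] at h1
    rcases (Nat.dvd_prime (by norm_num)).mp h1 with e | e
    · exact orderOf_eq_one_iff.mp e
    · exact absurd (e ▸ Subgroup.orderOf_dvd_natCard _ hyX) h7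
  have h42 : 42 ∣ X.index := by
    have h := Subgroup.relIndex_dvd_index_of_normal (H := X) (K := NP)
    rwa [← Subgroup.inf_relIndex_right, hXN, Subgroup.relIndex_bot_left, hN] at h
  obtain ⟨c, hc⟩ := h42
  have hidx := X.card_mul_index
  rw [hc, hG.card] at hidx
  have h288 : Nat.card X ∣ 288 := ⟨c, by linarith⟩
  exact ⟨h288, hmod⟩

/-- No nontrivial normal `7'`-subgroup. -/
theorem Good.eq_bot (X : Subgroup G) [X.Normal] (h7 : ¬ 7 ∣ Nat.card X) : X = ⊥ := by
  obtain ⟨P⟩ := (inferInstance : Nonempty (Sylow 7 G))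
  obtain ⟨h288, hmod⟩ := hG.card_normal X h7
  have hcases : ∀ d ∈ Nat.divisors 288, d % 7 = 1 → d = 1 ∨ d = 8 ∨ d = 36 ∨ d = 288 := by decide +kernel
  rcases hcases _ (Nat.mem_divisors.mpr ⟨h288, by norm_num⟩) hmod with h | h
  · exact Subgroup.eq_bot_of_card_eq _ h
  exfalso
  haveI : Fact (Nat.Prime 3) := ⟨Nat.prime_three⟩
  -- no order `36` or `288`: a fixed Sylow `3`-subgroup would have order nine
  have hnine : ∀ Y : Subgroup G, Y.Normal → ∀ m : ℕ, Nat.card Y = 9 * m → m ∣ 32 → False := by
    intro Y hY m hm hm32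
    letI : MulAction (P : Subgroup G) (Sylow 3 Y) :=
      MulAction.compHom _ ((MulAut.conjNormal : G →* MulAut Y).comp (P : Subgroup G).subtype)
    obtain ⟨S⟩ := (inferInstance : Nonempty (Sylow 3 Y))
    have hm3 : ¬ 3 ∣ m := fun h => by have := h.trans hm32; norm_num at this
    have hcardS : ∀ S : Sylow 3 Y, Nat.card (S : Subgroup Y) = 9 := by
      intro S
      have h := (S : Subgroup Y).card_mul_index
      obtain ⟨i, hi⟩ := (IsPGroup.iff_card.mp S.isPGroup')
      have hns := S.not_dvd_index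
      rw [hi, hm] at h
      rw [hi]
      have hcop : Nat.Coprime (3 ^ i) m := Nat.Coprime.pow_left i ((Nat.Prime.coprime_iff_not_dvd Nat.prime_three).mpr hm3)
      have hd : 3 ^ i ∣ 9 := hcop.dvd_of_dvd_mul_right ⟨_, h.symm⟩
      rcases Nat.lt_or_ge i 2 with hlt | hge
      · exfalso
        interval_cases i <;> omega
      · have : i ≤ 2 := (Nat.pow_dvd_pow_iff_le_right (by norm_num : 1 < 3)).mp hd
        rw [show i = 2 by omega]; norm_num
    have hn : ¬ 7 ∣ Nat.card (Sylow 3 Y) := fun h => by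
      have hd := h.trans S.card_dvd_index
      have h2 := (S : Subgroup Y).card_mul_index
      rw [hcardS S, hm] at h2
      rw [Nat.eq_of_mul_eq_mul_left (by norm_num) h2] at hd
      have := hd.trans hm32
      norm_num at this
    obtain ⟨S₁, hS₁⟩ := P.isPGroup'.nonempty_fixed_point_of_prime_not_dvd_card (Sylow 3 Y) hn
    set S' := (S₁ : Subgroup Y).map Y.subtype with hS'
    have hnorm : ∀ p ∈ (P : Subgroup G), ∀ y ∈ S', p * y * p⁻¹ ∈ S' := by
      rintro p hp _ ⟨y, hy, rfl⟩
      have hfix : (MulAut.conjNormal p : MulAut Y) • S₁ = S₁ := hS₁ ⟨p, hp⟩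
      have hmem : (MulAut.conjNormal p : MulAut Y) • y ∈
          (((MulAut.conjNormal p : MulAut Y) • S₁ : Sylow 3 Y) : Subgroup Y) := by
        rw [Sylow.pointwise_smul_def]
        exact Subgroup.smul_mem_pointwise_smul y _ _ hy
      rw [hfix] at hmem
      exact ⟨_, hmem, MulAut.conjNormal_apply p y⟩
    have h9 : Nat.card S' = 9 := by
      rw [hS', Subgroup.card_map_of_injective Y.subtype_injective, hcardS]
    have := hG.card_mod P S' hnorm (by rw [h9]; norm_num)
    omega
  rcases h with h | h | h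
  · -- order eight
    let f : G →* Equiv.Perm X :=
      { toFun := fun g => (MulAut.conjNormal g : MulAut X).toEquiv
        map_one' := by rw [map_one]; rfl
        map_mul' := fun a b => by rw [map_mul]; rfl }
    have hker : ¬ 7 ∣ Nat.card f.ker := by
      intro h7k
      obtain ⟨P', hP'⟩ := hG.exists_le f.ker h7k
      have hle : X ≤ Subgroup.centralizer ((P' : Subgroup G) : Set G) := by
        intro y hy p hp
        have h1 := DFunLike.congr_fun (MonoidHom.mem_ker.mp (hP' hp)) ⟨y, hy⟩
        have h2 : p * y * p⁻¹ = y :=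
          (MulAut.conjNormal_apply p ⟨y, hy⟩).symm.trans (congrArg Subtype.val h1)
        exact mul_inv_eq_iff_eq_mul.mp h2
      have h3 := Subgroup.card_dvd_of_le hle
      rw [(hG.seven P').2.1, h] at h3
      norm_num at h3
    obtain ⟨hk288, hkmod⟩ := hG.card_normal f.ker hker
    have hrange : Nat.card f.range ∣ 40320 := by
      have := Subgroup.card_subgroup_dvd_card f.range
      rwa [Nat.card_perm, h, show (8 : ℕ).factorial = 40320 by decide] at this
    have hmul := f.ker.card_mul_index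
    rw [Subgroup.index_ker, hG.card] at hmul
    obtain ⟨r, hr⟩ := hrange
    have hk : Nat.card f.ker ∣ 12096 := ⟨_, hmul.symm⟩
    have hr0 : 0 < Nat.card f.range := Nat.card_pos
    have hkeys : ∀ k ∈ Nat.divisors 12096, k % 7 = 1 → 12096 / k ∣ 40320 → k = 36 ∨ k = 288 ∨ ¬ k ∣ 288 := by
      decide +kernel
    have hdiv : 12096 / Nat.card f.ker = Nat.card f.range :=
      Nat.div_eq_of_eq_mul_right Nat.card_pos hmul.symm
    rcases hkeys _ (Nat.mem_divisors.mpr ⟨hk, by norm_num⟩) hkmod (hdiv ▸ ⟨r, hr⟩) with e | e | e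
    · exact hnine f.ker inferInstance 4 e (by norm_num)
    · exact hnine f.ker inferInstance 32 e (by norm_num)
    · exact e hk288
  · exact hnine X inferInstance 4 h (by norm_num)
  · exact hnine X inferInstance 32 h (by norm_num)

omit hG in
/-- The join of two normal `7'`-subgroups. -/
theorem not_seven_dvd_sup {M : Type*} [Group M] [Finite M] (A B : Subgroup M) [A.Normal]
    (hA : ¬ 7 ∣ Nat.card A) (hB : ¬ 7 ∣ Nat.card B) : ¬ 7 ∣ Nat.card (A ⊔ B : Subgroup M) := by
  intro h
  have h1 := Subgroup.card_mul_index (A.subgroupOf (A ⊔ B))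
  rw [Nat.card_congr (Subgroup.subgroupOfEquivOfLe le_sup_left).toEquiv,
    show (A.subgroupOf (A ⊔ B)).index = A.relIndex (A ⊔ B) from rfl, Subgroup.relIndex_sup_left] at h1
  rw [← h1] at h
  rcases (Nat.Prime.dvd_mul (by norm_num)).mp h with e | e
  · exact hA e
  · exact hB (e.trans (Subgroup.relIndex_dvd_card A B))

/-- The simple normal subgroup. -/
theorem Good.exists_normal_simple :
    ∃ (N : Subgroup G), N.Normal ∧ IsSimpleGroup N ∧ Subgroup.centralizer (N : Set G) = ⊥ ∧
      7 ∣ Nat.card N ∧ ¬ IsMulCommutative N := by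
  obtain ⟨P⟩ := (inferInstance : Nonempty (Sylow 7 G))
  obtain ⟨hP, hC, hN⟩ := hG.seven P
  set N := Subgroup.normalClosure ((P : Subgroup G) : Set G) with hNdef
  haveI hNn : N.Normal := Subgroup.normalClosure_normal
  have hPN : (P : Subgroup G) ≤ N := fun y hy => Subgroup.subset_normalClosure hy
  have h7N : 7 ∣ Nat.card N := hP.symm.dvd.trans (Subgroup.card_dvd_of_le hPN)
  have hmin : ∀ M : Subgroup G, M.Normal → M ≠ ⊥ → N ≤ M := fun M hM hne => by
    have h7 : 7 ∣ Nat.card M := not_not.mp fun h => hne (hG.eq_bot M h)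
    obtain ⟨P₀, hP₀⟩ := hG.exists_le M h7
    exact Subgroup.normalClosure_le_normal (fun y hy => hG.sylow_le_of_le M hP₀ P hy)
  have hbig : N ≠ (P : Subgroup G) := fun e => by
    have h := hN
    rw [← e, Subgroup.normalizer_eq_top, Subgroup.card_top, hG.card] at h
    norm_num at h
  haveI : Nontrivial N := Finite.one_lt_card_iff_nontrivial.mp
    (lt_of_lt_of_le (by norm_num : 1 < 7) (Nat.le_of_dvd Nat.card_pos h7N))
  haveI hsimple : IsSimpleGroup N := by
    refine ⟨fun M hM => ?_⟩
    haveI := Fintype.ofFinite (Subgroup N)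
    classical
    by_cases h7 : 7 ∣ Nat.card M
    · right
      -- it contains every conjugate of `P`
      obtain ⟨P₀, hP₀⟩ := hG.exists_le (M.map N.subtype)
        (by rwa [Subgroup.card_map_of_injective N.subtype_injective])
      have hP₀N : (P₀ : Subgroup G) ≤ N := hP₀.trans (Subgroup.map_subtype_le M)
      have hall : ∀ P' : Sylow 7 G, (P' : Subgroup G) ≤ M.map N.subtype := by
        intro P' y hy
        have hP'N : (P' : Subgroup G) ≤ N := hG.sylow_le_of_le N hP₀N P'
        obtain ⟨n, hn⟩ := MulAction.exists_smul_eq N (P₀.subtype hP₀N) (P'.subtype hP'N)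
        have hy' : (⟨y, hP'N hy⟩ : N) ∈ ((P'.subtype hP'N : Sylow 7 N) : Subgroup N) := hy
        rw [← hn, Sylow.coe_subgroup_smul, Subgroup.mem_pointwise_smul_iff_inv_smul_mem] at hy'
        refine ⟨⟨y, hP'N hy⟩, ?_, rfl⟩
        obtain ⟨m, hm, hm'⟩ := hP₀ (show ((n⁻¹ * ⟨y, hP'N hy⟩ * n : N) : G) ∈ (P₀ : Subgroup G) by
          simpa [Subgroup.mem_subgroupOf] using hy')
        have hmem : n⁻¹ * ⟨y, hP'N hy⟩ * n ∈ M := Subtype.ext hm' ▸ hm
        have := hM.conj_mem _ hmem n
        simpa [mul_assoc] using this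
      have hNM : N ≤ M.map N.subtype := by
        show Subgroup.closure (Group.conjugatesOfSet ((P : Subgroup G) : Set G)) ≤ M.map N.subtype
        rw [Subgroup.closure_le]
        intro y hy
        obtain ⟨q, hq, hc⟩ := Group.mem_conjugatesOfSet_iff.mp hy
        obtain ⟨g, hg⟩ := isConj_iff.mp hc
        refine hall (g • P) ?_
        rw [Sylow.coe_subgroup_smul, Subgroup.mem_pointwise_smul_iff_inv_smul_mem]
        show (MulAut.conj g)⁻¹ • y ∈ (P : Subgroup G)
        rw [← hg, show (MulAut.conj g)⁻¹ • (g * q * g⁻¹) = q by simp [mul_assoc]]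
        exact hq
      rw [eq_top_iff]
      intro y _
      obtain ⟨m, hm, hm'⟩ := hNM y.2
      exact (Subtype.ext hm' : m = y) ▸ hm
    · left
      set M₀ := (Finset.univ.filter fun K : Subgroup N => K.Normal ∧ ¬ 7 ∣ Nat.card K).sup id
        with hM₀
      have hM₀p : M₀.Normal ∧ ¬ 7 ∣ Nat.card M₀ := by
        refine Finset.sup_induction (p := fun K : Subgroup N => K.Normal ∧ ¬ 7 ∣ Nat.card K)
          ⟨inferInstance, by rw [Subgroup.card_bot]; norm_num⟩ (fun A hA B hB => ?_)
          (fun K hK => (Finset.mem_filter.mp hK).2)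
        haveI := hA.1
        haveI := hB.1
        exact ⟨Subgroup.sup_normal A B, not_seven_dvd_sup A B hA.2 hB.2⟩
      have hle : ∀ K : Subgroup N, K.Normal → ¬ 7 ∣ Nat.card K → K ≤ M₀ := fun K hK hK7 =>
        Finset.le_sup (f := id) (Finset.mem_filter.mpr ⟨Finset.mem_univ _, hK, hK7⟩)
      haveI hM' : (M₀.map N.subtype).Normal := ⟨fun y hy g => by
        obtain ⟨m, hm, rfl⟩ := hy
        let α : MulAut N := MulAut.conjNormal g
        have := hle (M₀.map α.toMonoidHom) (hM₀p.1.map _ α.surjective)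
          (by rw [← Nat.card_congr (Subgroup.equivMapOfInjective M₀ α.toMonoidHom α.injective).toEquiv]; exact hM₀p.2)
          (Subgroup.mem_map_of_mem α.toMonoidHom hm)
        exact ⟨_, this, MulAut.conjNormal_apply g m⟩⟩
      have h0 := hG.eq_bot (M₀.map N.subtype)
        (by rw [Subgroup.card_map_of_injective N.subtype_injective]; exact hM₀p.2)
      rw [Subgroup.map_eq_bot_iff_of_injective _ N.subtype_injective] at h0
      exact le_bot_iff.mp (h0 ▸ hle M hM h7)
  refine ⟨N, hNn, hsimple, ?_, h7N, fun hc => hbig ?_⟩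
  · by_contra hne
    have hle := hmin _ inferInstance hne
    apply hbig
    refine le_antisymm ?_ hPN
    rw [← hG.centralizer_eq P]
    intro y hy p hp
    exact ((hle (hPN hp)) y hy).symm
  · refine le_antisymm ?_ hPN
    rw [← hG.centralizer_eq P]
    intro y hy p hp
    exact congrArg Subtype.val (hc.is_comm.comm ⟨p, hPN hp⟩ ⟨y, hy⟩)

/-- Reduction to a simple group of order `6048`, given the exclusion of simple groups of order
`12096`. -/
theorem Good.exists_small (hsimple : ∀ (N : Subgroup G), IsSimpleGroup N → ¬ IsMulCommutative N →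
      Good N → False) :
    ∃ N : Subgroup G, N.Normal ∧ IsSimpleGroup N ∧ Small N ∧
      Subgroup.centralizer (N : Set G) = ⊥ := by
  obtain ⟨N, hNn, hS, hC, h7, hcomm⟩ := hG.exists_normal_simple
  have hidxN := N.card_mul_index
  rw [hG.card] at hidxN
  have hspec : ∀ g : N, orderOf g ≠ 9 ∧ orderOf g ≠ 14 ∧ orderOf g ≠ 21 := fun g => by
    rw [← Subgroup.orderOf_coe]; exact hG.spec g
  have hloc : ∀ P' : Sylow 7 N, Nat.card (P' : Subgroup N) = 7 ∧
      Nat.card (Subgroup.centralizer ((P' : Subgroup N) : Set N)) = 7 ∧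
      Nat.card N = 288 * Nat.card (Subgroup.normalizer ((P' : Subgroup N) : Set N)) ∧
      Nat.card (Subgroup.normalizer ((P' : Subgroup N) : Set N)) ∣ 42 ∧
      7 ∣ Nat.card (Subgroup.normalizer ((P' : Subgroup N) : Set N)) := by
    intro P'
    have hP' : Nat.card (P' : Subgroup N) = 7 := by
      obtain ⟨i, hi⟩ := IsPGroup.iff_card.mp P'.isPGroup'
      have hd : 7 ^ i ∣ 12096 := hi ▸ (Subgroup.card_subgroup_dvd_card _).trans ⟨_, hidxN.symm⟩
      have h1 : 7 ∣ 7 ^ i := hi ▸ P'.dvd_card_of_dvd_card h7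
      rcases Nat.lt_or_ge i 2 with hlt | hge
      · interval_cases i <;> simp_all
      · have := (pow_dvd_pow 7 hge).trans hd
        norm_num at this
    obtain ⟨P, hPeq⟩ : ∃ P : Sylow 7 G, (P : Subgroup G) = (P' : Subgroup N).map N.subtype :=
      ⟨Sylow.ofCard ((P' : Subgroup N).map N.subtype) (by rw [Subgroup.card_map_of_injective N.subtype_injective, hP', hG.card,
        factorization_seven, pow_one]), rfl⟩
    obtain ⟨-, hCc, hNc⟩ := hG.seven P
    have hPN : (P : Subgroup G) ≤ N := hPeq ▸ Subgroup.map_subtype_le _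
    have hmem : ∀ y : N, (y : G) ∈ (P : Subgroup G) ↔ y ∈ (P' : Subgroup N) := fun y => by
      rw [hPeq]; exact Subgroup.mem_map_iff_mem N.subtype_injective
    have hnorm : (Subgroup.normalizer ((P' : Subgroup N) : Set N)).map N.subtype =
        N ⊓ Subgroup.normalizer ((P : Subgroup G) : Set G) := by
      ext g
      constructor
      · rintro ⟨n, hn, rfl⟩
        refine ⟨n.2, Subgroup.mem_normalizer_iff.mpr fun y => ?_⟩
        constructor
        · intro hy
          exact (hmem (n * ⟨y, hPN hy⟩ * n⁻¹)).mpr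
            ((Subgroup.mem_normalizer_iff.mp hn _).mp ((hmem ⟨y, hPN hy⟩).mp hy))
        · intro hy
          have hy' : y ∈ N := by
            have h1 := mul_mem (mul_mem (inv_mem n.2) (hPN hy)) n.2
            simpa [mul_assoc] using h1
          exact (hmem (⟨y, hy'⟩ : N)).mpr ((Subgroup.mem_normalizer_iff.mp hn (⟨y, hy'⟩ : N)).mpr
            ((hmem (n * (⟨y, hy'⟩ : N) * n⁻¹)).mp hy))
      · rintro ⟨hgN, hg⟩
        refine ⟨⟨g, hgN⟩, Subgroup.mem_normalizer_iff.mpr fun y => ?_, rfl⟩
        rw [← hmem, ← hmem]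
        exact Subgroup.mem_normalizer_iff.mp hg y
    have hsup := Sylow.normalizer_sup_eq_top' P hPN
    have hrel : N.relIndex (Subgroup.normalizer ((P : Subgroup G) : Set G)) = N.index := by
      rw [← Subgroup.relIndex_top_right N,
        show (⊤ : Subgroup G) = N ⊔ Subgroup.normalizer ((P : Subgroup G) : Set G) from
          ((sup_comm _ _).trans hsup).symm, Subgroup.relIndex_sup_left]
    set m := Nat.card (Subgroup.normalizer ((P' : Subgroup N) : Set N)) with hm
    have hm' : m = Nat.card (N ⊓ Subgroup.normalizer ((P : Subgroup G) : Set G) : Subgroup G) := by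
      rw [← hnorm, Subgroup.card_map_of_injective N.subtype_injective]
    have hmul : m * N.index = 42 := by
      have h1 := Subgroup.card_mul_index (N.subgroupOf (Subgroup.normalizer ((P : Subgroup G) : Set G)))
      rw [hNc, show (N.subgroupOf (Subgroup.normalizer ((P : Subgroup G) : Set G))).index =
        N.relIndex (Subgroup.normalizer ((P : Subgroup G) : Set G)) from rfl, hrel,
        ← Subgroup.card_map_of_injective (Subgroup.subtype_injective _),
        Subgroup.subgroupOf_map_subtype] at h1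
      rw [hm']
      exact h1
    have h7m : 7 ∣ m := hP'.symm.dvd.trans (Subgroup.card_dvd_of_le Subgroup.le_normalizer)
    refine ⟨hP', ?_, ?_, ⟨_, hmul.symm⟩, h7m⟩
    · have hle : (Subgroup.centralizer ((P' : Subgroup N) : Set N)).map N.subtype ≤
          Subgroup.centralizer ((P : Subgroup G) : Set G) := by
        rintro _ ⟨y, hy, rfl⟩ p hp
        exact congrArg Subtype.val (hy ⟨p, hPN hp⟩ ((hmem ⟨p, hPN hp⟩).mp hp))
      have h1 := Subgroup.card_dvd_of_le hle
      rw [Subgroup.card_map_of_injective N.subtype_injective, hCc] at h1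
      haveI := isCyclic_of_prime_card hP'
      have h2 := Subgroup.card_dvd_of_le (Subgroup.le_centralizer (P' : Subgroup N))
      rw [hP'] at h2
      exact Nat.dvd_antisymm h1 h2
    · have hi : 0 < N.index := Nat.pos_of_ne_zero Subgroup.index_ne_zero_of_finite
      apply Nat.eq_of_mul_eq_mul_right hi
      rw [hidxN, mul_assoc, hmul]
      all_goals norm_num
  haveI := hS
  obtain ⟨P'⟩ := (inferInstance : Nonempty (Sylow 7 N))
  obtain ⟨hP', hC', hcard, hd, h7m⟩ := hloc P'
  set m := Nat.card (Subgroup.normalizer ((P' : Subgroup N) : Set N)) with hm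
  have hm7 : m ≠ 7 := CfsgLib.SmallSimple.card_normalizer_ne_prime hcomm 7 P' hP'
  have hcases : ∀ d ∈ Nat.divisors 42, 7 ∣ d → d = 7 ∨ d = 14 ∨ d = 21 ∨ d = 42 := by decide +kernel
  rcases hcases m (Nat.mem_divisors.mpr ⟨hd, by norm_num⟩) h7m with e | e | e | e
  · exact absurd e hm7
  · exact absurd (by rw [hcard, e] : Nat.card N = 4032) Cfsg.Agent.S0976.result
  · have h6 : Nat.card N = 6048 := by rw [hcard, e]
    refine ⟨N, hNn, hS, ⟨h6, fun g => (hspec g).1, fun Q => ?_⟩, hC⟩
    obtain ⟨-, hCQ, hcQ, -, -⟩ := hloc Q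
    exact ⟨hCQ, by omega⟩
  · exact (hsimple N hS hcomm ⟨by rw [hcard, e], hspec⟩).elim

end sevenPrime

end CfsgLib.GTwoTwoUniq80
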